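import Cfsg.Agent.CIT.FiN
import Cfsg.Agent.CIT.Basic
import Cfsg.Agent.Fgs3.MinNPC
import Cfsg.Agent.PLocal.Constraint

/-!
# Fischer's theorem for odd primes
-/

set_option autoImplicit false
set_option linter.unusedSectionVars false

namespace CF.CIT
open Subgroup Cfsg CF.BG CF.BlockB CF.Char
open scoped ComplexConjugate

universe u
variable {G : Type u} [Group G] [Finite G] {p : ℕ} {D : Set G} {H K P Q S : Subgroup G}
  {a b c g v w x y : G}

theorem npc_map_iff {G' : Type*} [Group G'] [Finite G'] {f : G →* G'} (hf : Function.Injective f) :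
    NPC p (H.map f) ↔ NPC p H := by
  rw [NPC, ← map_O _ _ hf, hall_map_iff hf]

theorem NPC.reg (h : NPC p H) (hx : x ∈ H) (hy : y ∈ H) (a : PiElt {p}ᶜ x) (b : PiElt {p}ᶜ y) :
    PiElt {p}ᶜ (x * y⁻¹) :=
  (O_pi _ _).elt (mul_mem (h.mem_O hx a) (inv_mem (h.mem_O hy b)))

theorem NPC.conj_le (l : S ≤ H) (k : PiGrp {p} S) (e : PiElt {p} x) (hx : x ∈ 𝐎 {p}ᶜ H ⊔ S) :
    ∃ o ∈ 𝐎 {p}ᶜ H, o * x * o⁻¹ ∈ S ∧ o * x * o⁻¹ * x⁻¹ ∈ 𝐎 {p}ᶜ H := by
  have n := (O_normal {p}ᶜ H).norm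
  obtain ⟨o, ho, m⟩ := exists_cj_le_of_le_sup (l.trans n) (zpowers_le.2 hx)
    (e.zpowers.coprime (O_pi _ _)) (Or.inl e.zpowers.sol)
  refine ⟨o, ho, m (conj_mem_cj.2 (mem_zpowers x)), ?_⟩
  simpa [mul_assoc] using mul_mem ho (conj_mem_of_norm (n (sup_le (O_le _ _) l hx)) (inv_mem ho))

theorem irr_fix (χ : IrrCharacter G) (Z : Subgroup G) [Fintype Z] : ∃ d α : ℕ, 0 < d ∧ (χ : G → ℂ) 1 = d ∧
    ∑ x : Z, (χ : G → ℂ) x = ♯Z * α ∧ (χ ≠ oneIrr G → (∀ g, Z ⊔ cj g Z = ⊤ → 2 * α ≤ d) ∧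
      ∀ a b c, cj a Z ⊔ cj b Z ⊔ cj c Z = ⊤ → 3 * α ≤ 2 * d) := by
  obtain ⟨d, α, h1, h2, h3⟩ := exists_fixDim (irr_isCharacter χ.2)
  refine ⟨d, α Z, Nat.pos_of_ne_zero fun e => irr_one_ne_zero χ.2 (by simp [h1, e]), h1, h3 Z, fun n => ?_⟩
  have c : ∀ g, α (cj g Z) = α Z := fun g => by
    haveI := Fintype.ofFinite (cj g Z)
    have := h3 (cj g Z)
    rw [← Fintype.sum_equiv (show Z ≃ cj g Z from (Z.equivMapOfInjective _ (MulAut.conj g).injective).toEquiv) (fun x => (χ : G → ℂ) x)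
      (fun x : cj g Z => (χ : G → ℂ) x) fun x => (classFun_conj (irr_isClassFunction χ.2) x g).symm, card_cj,
      h3, eq_comm] at this
    exact_mod_cast mul_left_cancel₀ (Nat.cast_ne_zero.2 Nat.card_pos.ne') this
  have t : α ⊤ = 0 := by
    haveI := Fintype.ofFinite G
    haveI := Fintype.ofFinite (⊤ : Subgroup G)
    have := h3 ⊤
    rw [Fintype.sum_equiv topEquiv.toEquiv (fun x => (χ : G → ℂ) x) (χ : G → ℂ) fun _ => rfl, ← mul_right_inj' (inv_ne_zero (card_ne_zero_complex (G := G))),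
      ← inner_one_right, inner_irr_ne χ.2 irr_one fun e => n (Subtype.ext e)] at this
    simpa [Nat.card_pos.ne'] using this.symm
  refine ⟨fun g e => ?_, fun a b c' e => ?_⟩
  · have := h2 Z (cj g Z); rw [e, c] at this; omega
  · have := h2 (cj a Z) (cj b Z)
    have := h2 (cj a Z ⊔ cj b Z) (cj c' Z)
    simp only [e, c] at *; omega

/-- the elements of `D` in `P` -/
noncomputable def zs (D : Set G) (P : Subgroup G) : Finset G := (Set.toFinite (D ∩ P)).toFinset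

theorem mem_zs : x ∈ zs D P ↔ x ∈ D ∧ x ∈ P := Set.Finite.mem_toFinset _

open scoped _root_.Classical in
/-- the number of `g` with `w ^ g * v` a `p'`-element -/
noncomputable def rho [Fintype G] (p : ℕ) (w v : G) : ℝ := ∑ g, if PiElt {p}ᶜ (g * w * g⁻¹ * v) then 1 else 0

structure FH (p : ℕ) (D : Set G) : Prop where
  pr : p.Prime
  odd : p ≠ 2
  ord : ∀ a ∈ D, orderOf a = p
  cnj : ∀ a ∈ D, ∀ g, g * a * g⁻¹ ∈ D
  cen : ∀ a ∈ D, ∀ Q : Subgroup G, PiGrp {p} Q → a ∈ Q → ∀ x ∈ Q, x * a = a * x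
  mul : ∀ a ∈ D, ∀ b ∈ D, a * b = b * a → a * b ∈ D ∨ a * b = 1
  np1 : ∀ a ∈ D, NPC p (𝐂₁ a)
  np2 : ∀ a ∈ D, ∀ b ∈ D, NPC p (closure {a, b})

namespace FH
variable (h : FH p D)
include h

theorem sub (K : Subgroup G) : FH p (K.subtype ⁻¹' D) where
  pr := h.pr
  odd := h.odd
  ord a ha := (orderOf_coe a).symm.trans (h.ord _ ha)
  cnj a ha g := h.cnj _ ha g
  cen a ha Q k m x hx := Subtype.ext (h.cen _ ha _ (k.map K.subtype) (mem_map_of_mem _ m) _
    (mem_map_of_mem _ hx))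
  mul a ha b hb e := (h.mul _ ha _ hb (congrArg Subtype.val e)).imp_right fun k => Subtype.ext k
  np1 a ha := (npc_map_iff K.subtype_injective).1 ((h.np1 _ ha).mono (by
    rintro _ ⟨x, hx, rfl⟩; exact mem_cent1.2 (congrArg Subtype.val (mem_cent1.1 hx))))
  np2 a ha b hb := (npc_map_iff K.subtype_injective).1 (by
    rw [MonoidHom.map_closure, Set.image_pair]; exact h.np2 _ ha _ hb)

theorem elt (ha : a ∈ D) : PiElt {p} a := by rw [PiElt, h.ord a ha]; exact piNat_self h.pr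

theorem ne (ha : a ∈ D) : a ≠ 1 := fun e => h.pr.one_lt.ne (by rw [← h.ord a ha, e, orderOf_one])

theorem not_reg (ha : a ∈ D) : ¬ PiElt {p}ᶜ a := fun k => h.ne ha ((h.elt ha).eq_one k)

theorem sq (ha : a ∈ D) : a * a ∈ D := (h.mul a ha a ha rfl).resolve_right fun e =>
  h.odd ((Nat.prime_dvd_prime_iff_eq h.pr Nat.prime_two).1
    (h.ord a ha ▸ orderOf_dvd_of_pow_eq_one (by rwa [pow_two])))

theorem inv (ha : a ∈ D) : a⁻¹ ∈ D := by
  have : ∀ n, a ^ (n + 1) ∈ D ∨ a ^ (n + 1) = 1 := fun n => by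
    induction n with
    | zero => simp [ha]
    | succ n ih =>
      rw [pow_succ]
      exact ih.elim (fun k => h.mul _ k a ha ((Commute.refl a).pow_left _)) fun k => by simp [k, ha]
  obtain ⟨n, e⟩ : ∃ n, p = n + 1 + 1 := ⟨p - 2, by have := h.pr.two_le; omega⟩
  have k : a ^ (n + 1) = a⁻¹ := eq_inv_of_mul_eq_one_left (by rw [← pow_succ, ← e, ← h.ord a ha, pow_orderOf_eq_one])
  exact k ▸ (this n).resolve_right (by rw [k, inv_eq_one]; exact h.ne ha)

theorem of_isConj (ha : a ∈ D) (k : IsConj a b) : b ∈ D := by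
  obtain ⟨g, rfl⟩ := isConj_iff.1 k; exact h.cnj a ha g

/-- the `p`-part of a product of two elements of `D` -/
theorem part (ha : a ∈ D) (hb : b ∈ D) :
    pPart p (b * a) ∈ D ∨ PiElt {p}ᶜ (b * a) ∧ IsConj b a⁻¹ := by
  have n := h.np2 a ha b hb
  set H := closure ({a, b} : Set G)
  have aH : a ∈ H := subset_closure (by simp)
  have bH : b ∈ H := subset_closure (by simp)
  obtain ⟨S, hS, l⟩ := exists_syl_le (zpowers_le.2 aH) (h.elt ha).zpowers
  obtain ⟨o, -, m, k⟩ := NPC.conj_le hS.le hS.pi (h.elt hb) ((n.sdprod hS).sup.ge bH)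
  have N := (O_normal {p}ᶜ H).norm
  have k' : (o * b * o⁻¹ * a) * (b * a)⁻¹ ∈ 𝐎 {p}ᶜ H := by simpa [mul_assoc] using k
  have aS := l (mem_zpowers a)
  rcases h.mul _ (h.cnj b hb o) a ha (h.cen a ha S hS.pi aS _ m) with c | c
  · left
    have y : PiElt {p} (pPart p (b * a)) := by
      obtain ⟨j, e⟩ := pPart_pElement h.pr (b * a)
      rw [PiElt, e]; exact piNat_pow_self h.pr j
    have r : pReg p (b * a) ∈ 𝐎 {p}ᶜ H := n.mem_O (pReg_mem (mul_mem bH aH))
      ((piNat_compl_single h.pr).2 (pReg_pRegular h.pr _))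
    obtain ⟨o', -, m', k''⟩ := NPC.conj_le hS.le hS.pi y ((n.sdprod hS).sup.ge (pPart_mem (mul_mem bH aH)))
    have : o' * pPart p (b * a) * o'⁻¹ * (o * b * o⁻¹ * a)⁻¹ = 1 :=
      (hS.pi.elt (mul_mem m' (inv_mem (mul_mem m aS)))).eq_one ((O_pi _ _).elt (by
        have := mul_mem (mul_mem k'' (inv_mem r)) (inv_mem k')
        rw [show (pReg p (b * a))⁻¹ = pPart p (b * a) * (b * a)⁻¹ by
          rw [inv_eq_iff_eq_inv, mul_inv_rev, inv_inv, eq_mul_inv_iff_mul_eq, pReg_mul_pPart]] at this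
        simpa [mul_assoc] using this))
    exact h.of_isConj (mul_inv_eq_one.1 this ▸ c) (isConj_iff.2 ⟨o', rfl⟩).symm
  · exact Or.inr ⟨by rw [c, one_mul] at k'; exact (O_pi _ _).elt (inv_mem_iff.1 k'),
      isConj_iff.2 ⟨o, eq_inv_of_mul_eq_one_left c⟩⟩

theorem reg_conj (ha : a ∈ D) (hb : b ∈ D) : PiElt {p}ᶜ (b * a * b⁻¹ * a⁻¹) := by
  have n := h.np2 a ha b hb
  set H := closure ({a, b} : Set G)
  have aH : a ∈ H := subset_closure (by simp)
  have bH : b ∈ H := subset_closure (by simp)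
  obtain ⟨S, hS, l⟩ := exists_syl_le (zpowers_le.2 bH) (h.elt hb).zpowers
  obtain ⟨o, -, m, k⟩ := NPC.conj_le hS.le hS.pi (h.elt ha) ((n.sdprod hS).sup.ge aH)
  have := mul_mem (conj_mem_of_norm ((O_normal {p}ᶜ H).norm bH) (inv_mem k)) k
  rw [show b * (o * a * o⁻¹ * a⁻¹)⁻¹ * b⁻¹ * (o * a * o⁻¹ * a⁻¹) =
    b * a * (b * (o * a * o⁻¹))⁻¹ * (o * a * o⁻¹ * a⁻¹) by group,
    ← h.cen b hb S hS.pi (l (mem_zpowers b)) _ m] at this
  exact (O_pi _ _).elt (by simpa [mul_assoc] using this)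

theorem exists_mem (ha : a ∈ D) (hP : Syl p P ⊤) : ∃ g, g * a * g⁻¹ ∈ P :=
  (hP.syl_cj_le le_top (h.elt ha).zpowers).imp fun _ k => k.2 (conj_mem_cj.2 (mem_zpowers a))

theorem iso (ha : a ∈ D) (k : ∀ a ∈ D, ∀ g, g * a * g⁻¹ * a = a * (g * a * g⁻¹) → g * a * g⁻¹ = a) :
    NPC p (⊤ : Subgroup G) := Fgs3.npc_of_cent h.pr fun X _ _ hX g _ n e => by
  obtain ⟨S, hS, l⟩ := exists_syl_le le_top hX
  obtain ⟨c, m⟩ := h.exists_mem ha hS
  have ha := h.cnj a ha c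
  generalize c * a * c⁻¹ = a at *
  have aC : a ∈ 𝐂 X := mem_centralizer_iff.2 fun x hx => h.cen a ha S hS.pi m x (l hx)
  obtain ⟨Q, hQ, l'⟩ := exists_syl_le (zpowers_le.2 aC) (h.elt ha).zpowers
  have aQ := l' (mem_zpowers a)
  have c : 𝐍 X ⊓ 𝐍 Q ≤ 𝐂₁ a := fun y hy => mem_cent1.2 (mul_inv_eq_iff_eq_mul.1
    (k a ha y (h.cen a ha Q hQ.pi aQ _ (conj_mem_of_norm hy.2 aQ))))
  refine e.mem_of_relIndex n (norm_le_norm_cent X) ?_
  rw [← hQ.syl_frattini_sup ⟨cent_le_norm X, norm_le_norm_cent X⟩,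
    relIndex_sup_norm' (Or.inl (inf_le_left.trans (norm_le_norm_cent X)))]
  exact PiNat.dvd ((h.np1 a ha).mono c).idx (relIndex_dvd_of_le_left _ ((h.np1 a ha).cent
    (fun x hx => mem_cent1.2 (mem_centralizer_iff.1 aC x hx)) hX ((O_le _ _).trans c) (O_pi _ _)
    ((O_le _ _).trans inf_le_left)))

/-- if no three elements of `D` generate `G`, commuting conjugates in `D` coincide -/
theorem iso_of (gen : closure D = ⊤) (ih : ∀ K : Subgroup G, K ≠ ⊤ → NPC p (closure (D ∩ K)))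
    (t : ∀ a ∈ D, ∀ b ∈ D, ∀ c ∈ D, closure {a, b, c} ≠ ⊤) (ha : a ∈ D) (g : G)
    (k : g * a * g⁻¹ * a = a * (g * a * g⁻¹)) : g * a * g⁻¹ = a := by
  have tr : ∀ a ∈ D, ∀ b ∈ D, ∀ c ∈ D, PiElt {p}ᶜ (a * b⁻¹) → PiElt {p}ᶜ (b * c⁻¹) →
      PiElt {p}ᶜ (a * c⁻¹) := fun a ha b hb c hc x y => by
    have m : ∀ z ∈ D, z ∈ ({a, b, c} : Set G) → z ∈ closure (D ∩ closure ({a, b, c} : Set G)) :=
      fun z hz l => subset_closure ⟨hz, subset_closure l⟩
    simpa [mul_assoc] using NPC.reg (ih _ (t a ha b hb c hc)) (mul_mem (m a ha (by simp)) (inv_mem (m b hb (by simp))))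
      (inv_mem (mul_mem (m b hb (by simp)) (inv_mem (m c hc (by simp))))) x y.inv
  have : ∀ g ∈ closure D, ∀ a ∈ D, PiElt {p}ᶜ (g * a * g⁻¹ * a⁻¹) := fun g hg => by
    induction hg using closure_induction with
    | mem b hb => exact fun a ha => h.reg_conj ha hb
    | one => simpa using fun _ _ => piElt_one _
    | mul x y _ _ hx hy =>
      exact fun a ha => tr _ (h.cnj a ha _) _ (h.cnj a ha y) a ha
        (by simpa [mul_assoc] using hx _ (h.cnj a ha y)) (hy a ha)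
    | inv x _ hx => exact fun a ha => by simpa [mul_assoc] using (hx _ (h.cnj a ha x⁻¹)).inv
  exact mul_inv_eq_one.1 (((h.elt (h.cnj a ha g)).mul (h.elt ha).inv
    (show Commute _ a from k).inv_right).eq_one (this g (gen.ge trivial) a ha))

theorem mem_Z (k : PiGrp {p} P) : x ∈ closure (D ∩ P) ↔ x ∈ zs D P ∨ x = 1 := by
  refine ⟨fun hx => ?_, fun hx => hx.elim (fun l => subset_closure (mem_zs.1 l)) fun l => l ▸ one_mem _⟩
  simp only [mem_zs]
  induction hx using closure_induction with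
  | mem b hb => exact Or.inl hb
  | one => exact Or.inr rfl
  | mul x y _ _ hx hy =>
    rcases hx with hx | rfl
    · rcases hy with hy | rfl
      · exact (h.mul x hx.1 y hy.1 (h.cen y hy.1 P k hy.2 x hx.2)).imp_left fun l => ⟨l, mul_mem hx.2 hy.2⟩
      · simpa using Or.inl hx
    · simpa using hy
  | inv x _ hx => exact hx.imp (fun l => ⟨h.inv l.1, inv_mem l.2⟩) (by simp)

theorem sum_Z (k : PiGrp {p} P) [Fintype (closure (D ∩ P))] {M : Type*} [AddCommMonoid M] (f : G → M) :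
    ∑ x : closure (D ∩ P), f x = f 1 + ∑ v ∈ zs D P, f v := by
  classical
  rw [← Finset.sum_insert fun l => h.ne (mem_zs.1 l).1 rfl]
  exact (Finset.sum_subtype _ (fun x => by rw [h.mem_Z k, Finset.mem_insert, or_comm]) f).symm

theorem card_Z (k : PiGrp {p} P) : ♯(closure (D ∩ P)) = (zs D P).card + 1 := by
  haveI := Fintype.ofFinite (closure (D ∩ P))
  simpa [add_comm] using h.sum_Z k fun _ => (1 : ℕ)

theorem card_filter (hP : Syl p P ⊤) (hv : v ∈ D) [DecidablePred (IsConj · v)] :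
    ((zs D P).filter (IsConj · v)).card = (centralizer (D ∩ P)).relIndex (𝐍 P) := by
  obtain ⟨g, m⟩ := h.exists_mem hv hP
  have hu := h.cnj v hv g
  have c : ∀ u ∈ D, u ∈ P → P ≤ 𝐂₁ u := fun u a b x hx => mem_cent1.2 (h.cen u a P hP.pi b x hx)
  have e : 𝐂₁ (g * v * g⁻¹) ⊓ 𝐍 P = centralizer (D ∩ P) ⊓ 𝐍 P := by
    refine le_antisymm (le_inf ?_ inf_le_right) (inf_le_inf_right _ fun x hx =>
      mem_cent1.2 (hx _ ⟨hu, m⟩).symm)
    have l := le_inf (c _ hu m) (le_norm_self P)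
    have n := (h.np1 _ hu).mono (inf_le_left (b := 𝐍 P))
    rw [← (n.sdprod (hP.of_le l le_top)).sup]
    exact sup_le (fun x hx y hy => n.cent l hP.pi (O_le _ _) (O_pi _ _) ((O_le _ _).trans inf_le_right) hx y hy.2)
      fun x hx y hy => (h.cen y hy.1 P hP.pi hy.2 x hx).symm
  rw [← inf_relIndex_right, ← e, inf_relIndex_right, ← ncard_conj, ← Set.ncard_coe_finset]
  congr 1
  ext w
  simp only [Finset.coe_filter, mem_zs, Set.mem_ofPred_eq]
  constructor
  · rintro ⟨⟨hw, wP⟩, k⟩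
    obtain ⟨x, rfl⟩ := isConj_iff.1 ((k.trans (isConj_iff.2 ⟨g, rfl⟩)).symm)
    obtain ⟨y, hy, l⟩ := ((hP.cj_top x).of_le (cj_cent1 x _ ▸ cj_mono x (c _ hu m)) le_top).syl_conj
      (hP.of_le (c _ hw wP) le_top)
    refine ⟨y * x, cj_eq_self.1 (by rw [← cj_cj, ← l]), ?_⟩
    rw [← mul_inv_eq_iff_eq_mul.2 (mem_cent1.1 hy)]
    group
  · rintro ⟨t, ht, rfl⟩
    exact ⟨⟨h.cnj _ hu t, conj_mem_of_norm ht m⟩, (isConj_iff.2 ⟨t * g, by group⟩).symm⟩

variable {M : Ideal AlgInt}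

open scoped _root_.Classical in
theorem ker (hM : IsPModular p M) (hP : Syl p P ⊤) (hv : v ∈ zs D P) (y : G) :
    ∑ χ ∈ pb M G, (χ : G → ℂ) y * conj ((χ : G → ℂ) v) = if IsConj v (pPart p y) then (♯P : ℂ) else 0 := by
  obtain ⟨hv, m⟩ := mem_zs.1 hv
  have o : ∃ k, orderOf v = p ^ k := ⟨1, by rw [h.ord v hv, pow_one]⟩
  split_ifs with c
  · have n := h.np1 v hv
    haveI := (O_normal {p}ᶜ (𝐂₁ v)).normal
    have i : ((𝐎 {p}ᶜ (𝐂₁ v)).subgroupOf (𝐂₁ v)).index = ♯P := (n.sdprod (hP.of_le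
      (fun x hx => mem_cent1.2 (h.cen v hv P hP.pi m x hx)) le_top)).relIndex_left
    have d : ¬ p ∣ Nat.card ((𝐎 {p}ᶜ (𝐂₁ v)).subgroupOf (𝐂₁ v)) := by
      rw [Nat.card_congr (subgroupOfEquivOfLe (O_le _ _)).toEquiv]
      exact (O_pi _ _).not_dvd' h.pr rfl
    obtain ⟨k, hk⟩ := hP.pi.card_pow
    have := sum_pb_section_norm_sq_of_npc hM o _ d (i.trans hk) 1 (by simpa using h.pr.one_lt.ne')
    rw [Finset.sum_congr rfl fun χ hχ => by rw [pb_apply_eq_of_npc hM o _ d (i.trans hk) c (mem_pb.1 hχ)],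
      sum_mul_conj_eq_sum_norm_sq, ← i]
    simpa using congrArg (fun x : ℝ => (x : ℂ)) this
  · exact pb_orth hM fun k => c (by rw [← pPart_of_pElement h.pr o]; exact k.symm)

open scoped _root_.Classical in
theorem sum_ker (hM : IsPModular p M) (hP : Syl p P ⊤) (y : G) :
    ∑ χ ∈ pb M G, (χ : G → ℂ) y * conj (∑ v ∈ zs D P, (χ : G → ℂ) v) =
      if pPart p y ∈ D then (♯P * (centralizer (D ∩ P)).relIndex (𝐍 P) : ℂ) else 0 := by
  simp only [map_sum, Finset.mul_sum]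
  rw [Finset.sum_comm, Finset.sum_congr rfl fun v hv => h.ker hM hP hv y]
  split_ifs with c
  · rw [← Finset.sum_filter, Finset.sum_const, h.card_filter hP c, nsmul_eq_mul, mul_comm]
  · exact Finset.sum_eq_zero fun v hv => if_neg fun k => c (h.of_isConj (mem_zs.1 hv).1 k)

theorem triple [Fintype G] (hM : IsPModular p M) (hP : Syl p P ⊤) (hv : v ∈ D) (hw : w ∈ D) :
    ∑ χ ∈ pb M G, (χ : G → ℂ) w * (χ : G → ℂ) v * (conj (∑ v ∈ zs D P, (χ : G → ℂ) v) / (χ : G → ℂ) 1) =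
      ♯P * (centralizer (D ∩ P)).relIndex (𝐍 P) * (1 - rho p w v / Nat.card G) := by
  classical
  refine mul_left_cancel₀ (card_ne_zero_complex (G := G)) ?_
  have : ∀ χ ∈ pb M G, Nat.card G * ((χ : G → ℂ) w * (χ : G → ℂ) v *
      (conj (∑ v ∈ zs D P, (χ : G → ℂ) v) / (χ : G → ℂ) 1)) =
      ∑ g, (χ : G → ℂ) (g * w * g⁻¹ * v) * conj (∑ v ∈ zs D P, (χ : G → ℂ) v) := fun χ _ => by
    rw [← Finset.sum_mul, sum_irr_conj_mul χ.2]; ring
  rw [Finset.mul_sum, Finset.sum_congr rfl this, Finset.sum_comm]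
  simp only [h.sum_ker hM hP]
  rw [mul_left_comm, mul_sub, mul_one, mul_div_cancel₀ _ card_ne_zero_complex, rho, Nat.card_eq_fintype_card (α := G),
    ← Finset.card_univ, Finset.card_eq_sum_ones]
  push_cast
  rw [← Finset.sum_sub_distrib, Finset.mul_sum]
  refine Finset.sum_congr rfl fun g _ => ?_
  by_cases r : PiElt {p}ᶜ (g * w * g⁻¹ * v)
  · rw [if_neg fun k => h.ne k ((pPart_eq_one_iff h.pr).2 (r.not_dvd' h.pr rfl))]; simp [r]
  · rw [if_pos ((h.part hv (h.cnj w hw g)).resolve_right fun k => r k.1)]; simp [r]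

theorem sum_rho [Fintype G] (hP : Syl p P ⊤) (hv : v ∈ D) :
    ∑ w ∈ zs D P, rho p w v = (centralizer (D ∩ P)).relIndex (𝐍 P) * rho p v⁻¹ v := by
  classical
  rw [← h.card_filter hP (h.inv hv), ← nsmul_eq_mul, ← Finset.sum_const, Finset.sum_filter]
  refine Finset.sum_congr rfl fun w hw => ?_
  split_ifs with c
  · obtain ⟨c, e⟩ := isConj_iff.1 c
    rw [rho, rho, ← e, ← Equiv.sum_comp (Equiv.mulRight c)]
    simp [mul_assoc]
  · refine Finset.sum_eq_zero fun g _ => if_neg fun r => c ((isConj_iff.2 ⟨g, rfl⟩).trans ?_)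
    exact ((h.part hv (h.cnj w (mem_zs.1 hw).1 g)).resolve_left fun k =>
      h.ne k ((pPart_eq_one_iff h.pr).2 (r.not_dvd' h.pr rfl))).2

theorem rho_half [Fintype G] (hv : v ∈ D) :
    2 * ∑ w ∈ zs D P, rho p w v ≤ Nat.card G * (zs D P).card := by
  classical
  simp only [rho]
  rw [Finset.sum_comm, Finset.mul_sum, Nat.card_eq_fintype_card, ← nsmul_eq_mul, ← Finset.card_univ,
    ← Finset.sum_const]
  refine Finset.sum_le_sum fun g _ => ?_
  have i : ∀ w ∈ zs D P, w⁻¹ ∈ zs D P := fun w hw => mem_zs.2 ⟨h.inv (mem_zs.1 hw).1, inv_mem (mem_zs.1 hw).2⟩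
  rw [two_mul, Finset.card_eq_sum_ones]
  nth_rw 2 [Finset.sum_nbij' (·⁻¹) (·⁻¹) i i (by simp) (by simp)
    (g := fun w => if PiElt {p}ᶜ (g * w⁻¹ * g⁻¹ * v) then (1 : ℝ) else 0) (by simp)]
  rw [← Finset.sum_add_distrib, Nat.cast_sum]
  refine Finset.sum_le_sum fun w hw => ?_
  have hb := h.cnj w (mem_zs.1 hw).1 g
  split_ifs with a b
  · have m : g * w * g⁻¹ ∈ closure {v, g * w * g⁻¹} := subset_closure (by simp)
    have m' : v ∈ closure {v, g * w * g⁻¹} := subset_closure (by simp)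
    have := NPC.reg (h.np2 v hv _ hb) (mul_mem m m') (by simpa [mul_assoc] using mul_mem (inv_mem m) m') a b
    exact (h.not_reg (h.sq hb) (by simpa [mul_assoc] using this)).elim
  all_goals norm_num

theorem rho_one [Fintype G] (k : PiGrp {p} P) (ih : ∀ K : Subgroup G, K ≠ ⊤ → NPC p (closure (D ∩ K)))
    (n : ∀ g, closure (D ∩ P) ⊔ cj g (closure (D ∩ P)) ≠ ⊤) (hv : v ∈ zs D P) :
    ∑ w ∈ zs D P, rho p w v ≤ Nat.card G := by
  classical
  simp only [rho]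
  rw [Finset.sum_comm, Nat.card_eq_fintype_card, ← Finset.card_univ, Finset.card_eq_sum_ones, Nat.cast_sum]
  refine Finset.sum_le_sum fun g _ => ?_
  rw [Finset.sum_boole, Nat.cast_le, Finset.card_le_one]
  intro a ha b hb
  simp only [Finset.mem_filter, mem_zs] at ha hb
  have m : ∀ w, w ∈ D ∧ w ∈ P → g * w * g⁻¹ * v ∈ closure (D ∩ ↑(closure (D ∩ P) ⊔ cj g (closure (D ∩ P)))) :=
    fun w hw => mul_mem (subset_closure ⟨h.cnj w hw.1 g, mem_sup_right (conj_mem_cj.2 (subset_closure hw))⟩)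
      (subset_closure ⟨(mem_zs.1 hv).1, mem_sup_left (subset_closure (mem_zs.1 hv))⟩)
  have := (NPC.reg (ih _ (n g)) (m a ha.1) (m b hb.1) ha.2 hb.2).conj g⁻¹
  exact mul_inv_eq_one.1 ((k.elt (mul_mem ha.1.2 (inv_mem hb.1.2))).eq_one (by simpa [mul_assoc] using this))

theorem core (gen : closure D = ⊤) (ih : ∀ K : Subgroup G, K ≠ ⊤ → NPC p (closure (D ∩ K))) :
    NPC p (⊤ : Subgroup G) := by
  classical
  rcases D.eq_empty_or_nonempty with rfl | ⟨a, ha⟩
  · exact npc_of_pi' (by rw [← gen, Subgroup.closure_empty]; exact piGrp_bot _)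
  refine h.iso ha fun a ha g k => by_contra fun ne => ?_
  haveI := Fintype.ofFinite G
  obtain ⟨P, hP, l⟩ := exists_syl_le le_top ((h.elt (h.cnj a ha g)).zpowers.sup (h.elt ha).zpowers
    (Or.inl ((zpowers_le.2 (cent_zpowers a ▸ mem_cent1.2 k)).trans (cent_le_norm _))))
  set e := (centralizer (D ∩ P)).relIndex (𝐍 P) with he
  set m := (zs D P).card with hm
  have aP := mem_zs.2 ⟨ha, l (mem_sup_right (mem_zpowers a))⟩
  have e2 : 2 ≤ e := by
    rw [he, ← h.card_filter hP ha]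
    exact Finset.one_lt_card.2 ⟨_, Finset.mem_filter.2 ⟨mem_zs.2 ⟨h.cnj a ha g, l (mem_sup_left
      (mem_zpowers _))⟩, (isConj_iff.2 ⟨g, rfl⟩).symm⟩, a, Finset.mem_filter.2 ⟨aP, IsConj.refl a⟩, ne⟩
  have em : e ≤ m := by rw [he, ← h.card_filter hP ha]; exact Finset.card_filter_le _ _
  have ZP : closure (D ∩ P) ≤ P := (closure_le _).2 Set.inter_subset_right
  have cZ := h.card_Z hP.pi
  have mP : m + 1 ≤ ♯P := cZ ▸ card_le_of_le ZP
  have om : ¬ 2 ∣ m + 1 := cZ ▸ (hP.pi.le ZP).not_dvd Nat.prime_two h.odd.symm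
  obtain ⟨M, hM⟩ := exists_isPModular h.pr
  choose d α d0 d1 hα hi using fun χ : IrrCharacter G => irr_fix χ (closure (D ∩ P))
  set s : IrrCharacter G → ℝ := fun χ => (m + 1) * α χ - d χ with hs
  have S : ∀ χ : IrrCharacter G, ∑ v ∈ zs D P, (χ : G → ℂ) v = s χ := fun χ => by
    have := hα χ
    rw [h.sum_Z hP.pi, cZ, d1, ← hm] at this
    simp [hs, eq_sub_of_add_eq' this]
  set n : IrrCharacter G → ℝ := fun χ => ∑ v ∈ zs D P, ‖(χ : G → ℂ) v‖ ^ 2 with hn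
  set R := (∑ v ∈ zs D P, ∑ w ∈ zs D P, rho p w v) / Nat.card G with hR
  have N : (0 : ℝ) < Nat.card G := Nat.cast_pos.2 Nat.card_pos
  have T := fun v w (hv : v ∈ D) (hw : w ∈ D) => h.triple hM hP hv hw
  have K := h.sum_ker hM hP
  simp only [S, d1, Complex.conj_ofReal, ← he] at T K
  have d1' : d (oneIrr G) = 1 := by have := d1 (oneIrr G); simp at this; exact_mod_cast this.symm
  have key := fun t (ht : ∀ i ∈ pb M G, i ≠ oneIrr G → s i ≤ t * d i) => fisch_num (P := ♯P) (e := e) (m := m)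
    (R := R) (n := n) (oneIrr_mem_pb hM) (Nat.cast_pos.2 Nat.card_pos) (Nat.cast_pos.2 (by omega))
    (fun i _ => Nat.cast_pos.2 (d0 i)) (by have := S (oneIrr G); simp at this; exact_mod_cast this.symm)
    (by simp [d1']) (fun i _ => by simp only [hs]; nlinarith [(Nat.cast_nonneg (α i) : (0 : ℝ) ≤ _),
      (Nat.cast_nonneg m : (0 : ℝ) ≤ _)])
    (fun i _ => by
      rw [← sq_abs, ← Real.norm_eq_abs, ← Complex.norm_real, ← S]
      exact (pow_le_pow_left₀ (norm_nonneg _) (norm_sum_le _ _) 2).trans sq_sum_le_card_mul_sum_sq) ht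
    (by
      have := Finset.sum_congr rfl fun v (hv : v ∈ zs D P) => Finset.sum_congr rfl
        fun w (hw : w ∈ zs D P) => T v w (mem_zs.1 hv).1 (mem_zs.1 hw).1
      simp only [Finset.sum_comm (s := zs D P) (t := pb M G), ← Finset.sum_mul, ← Finset.mul_sum, S,
        Finset.sum_sub_distrib, ← Finset.sum_div, Finset.sum_const, nsmul_eq_mul, ← hm, mul_one] at this
      simp only [hR, pow_two]
      exact_mod_cast this)
    (by
      have := Finset.sum_congr rfl fun v (hv : v ∈ zs D P) => (K v).trans (if_pos (by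
        rw [pPart_of_pElement h.pr ⟨1, by rw [h.ord v (mem_zs.1 hv).1, pow_one]⟩]; exact (mem_zs.1 hv).1))
      simp only [Finset.sum_comm (s := zs D P) (t := pb M G), ← Finset.sum_mul, S, Finset.sum_const,
        nsmul_eq_mul, ← hm] at this
      simp only [pow_two, mul_comm _ (m : ℝ), ← mul_assoc]
      exact_mod_cast this)
    (by
      have := (K 1).trans (if_neg fun k => h.ne k (by simp [pPart]))
      simp only [d1, mul_comm (d _ : ℂ)] at this
      exact_mod_cast this)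
    (by
      have := Finset.sum_congr rfl fun v (hv : v ∈ zs D P) => T v v⁻¹ (mem_zs.1 hv).1 (h.inv (mem_zs.1 hv).1)
      simp only [Finset.sum_comm (s := zs D P) (t := pb M G), ← Finset.sum_mul, ← Finset.mul_sum,
        Finset.sum_sub_distrib, ← Finset.sum_div, Finset.sum_const, nsmul_eq_mul, ← hm, mul_one,
        fun χ : IrrCharacter G => irr_inv χ.2, Complex.conj_mul'] at this
      rw [hR, Finset.sum_congr rfl fun v hv => h.sum_rho hP (mem_zs.1 hv).1, ← Finset.mul_sum, ← he,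
        mul_div_assoc, ← mul_sub, ← mul_assoc]
      simp only [hn]
      exact_mod_cast this)
    (by
      have := Finset.sum_congr rfl fun v (hv : v ∈ zs D P) => (h.ker hM hP hv v).trans (if_pos (by
        rw [pPart_of_pElement h.pr ⟨1, by rw [h.ord v (mem_zs.1 hv).1, pow_one]⟩]))
      simp only [Finset.sum_comm (s := zs D P) (t := pb M G), Finset.sum_const, nsmul_eq_mul, ← hm,
        Complex.mul_conj'] at this
      simp only [hn, mul_comm _ (m : ℝ)]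
      exact_mod_cast this)
  have m0 : (0 : ℝ) ≤ m + 1 := by positivity
  by_cases V : ∃ g, closure (D ∩ P) ⊔ cj g (closure (D ∩ P)) = ⊤
  · obtain ⟨g, V⟩ := V
    obtain ⟨k1, i, -, l, k2⟩ := key ((m - 1) / 2) fun i _ k => by
      have : 2 * (α i : ℝ) ≤ d i := by exact_mod_cast (hi i k).1 g V
      simp only [hs]; nlinarith
    refine fisch_V (by exact_mod_cast mP) (by exact_mod_cast e2) (by exact_mod_cast em) k1 ?_
      (mul_nonneg (sq_nonneg _) ?_) k2
    · rw [hR, ← mul_div_assoc, div_le_iff₀ N, Finset.mul_sum]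
      refine (Finset.sum_le_sum fun v hv => h.rho_half (mem_zs.1 hv).1).trans (le_of_eq ?_)
      simp only [Finset.sum_const, nsmul_eq_mul, ← hm]; ring
    · have : (2 : ℝ) ≤ m := by exact_mod_cast e2.trans em
      linarith
  push Not at V
  have r : R ≤ m := by
    rw [hR, div_le_iff₀ N]
    refine (Finset.sum_le_sum fun v hv => h.rho_one hP.pi ih V hv).trans (le_of_eq ?_)
    simp only [Finset.sum_const, nsmul_eq_mul, ← hm]
  obtain ⟨a, ha', b, hb, c, hc, t⟩ : ∃ a ∈ D, ∃ b ∈ D, ∃ c ∈ D, closure {a, b, c} = ⊤ := by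
    by_contra! t
    exact ne (h.iso_of gen ih t ha g k)
  have z : ∀ a ∈ D, ∃ g, a ∈ cj g (closure (D ∩ P)) := fun a ha => (h.exists_mem ha hP).elim fun g k =>
    ⟨g⁻¹, mem_cj_inv.2 (subset_closure ⟨h.cnj a ha g, k⟩)⟩
  obtain ⟨x, hx⟩ := z a ha'
  obtain ⟨y, hy⟩ := z b hb
  obtain ⟨w, hw⟩ := z c hc
  obtain ⟨-, i, -, l, k2⟩ := key ((2 * m - 1) / 3) fun i _ k => by
    have : 3 * (α i : ℝ) ≤ 2 * d i := by
      exact_mod_cast (hi i k).2 x y w (eq_top_iff.2 (t.ge.trans ((closure_le _).2 (by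
        rintro _ (rfl | rfl | rfl)
        exacts [mem_sup_left (mem_sup_left hx), mem_sup_left (mem_sup_right hy), mem_sup_right hw]))))
    simp only [hs]; nlinarith
  obtain m2 | m4 : m = 2 ∨ 4 ≤ m := by omega
  · obtain ⟨u, hu⟩ : (zs D P).Nonempty := ⟨_, aP⟩
    have f : (zs D P).filter (IsConj · u) = zs D P := Finset.eq_of_subset_of_card_le (Finset.filter_subset _ _)
      (by rw [h.card_filter hP (mem_zs.1 hu).1]; omega)
    have := S i
    rw [Finset.sum_congr rfl fun v hv => classFun_of_isConj (irr_isClassFunction i.2)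
      (Finset.mem_filter.1 (f.ge hv)).2, Finset.sum_const, ← hm, m2, nsmul_eq_mul] at this
    obtain ⟨j, hj⟩ := int_of_isIntegral_rat (q := (3 * α i - d i) / 2) (by
      convert char_isIntegral (irr_isCharacter i.2) u
      simp only [hs, m2] at this
      push_cast at this ⊢
      linear_combination -this / 2)
    have hj : s i = 2 * j := by
      have : ((3 * α i - d i) / 2 : ℝ) = j := by exact_mod_cast hj
      simp only [hs, m2]; push_cast; linarith
    have j0 : j < 0 := by exact_mod_cast (by linarith : (j : ℝ) < 0)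
    have j1 : (j : ℝ) ≤ -1 := by exact_mod_cast (by omega : j ≤ -1)
    rw [m2, hj] at k2
    rw [m2] at r
    push_cast at k2 r
    have : 0 ≤ (♯P : ℝ) * e * (2 - R) := mul_nonneg (by positivity) (by linarith)
    nlinarith
  · have : (4 : ℝ) ≤ m := by exact_mod_cast m4
    exact fisch_W (by exact_mod_cast mP) (by exact_mod_cast e2) this r (mul_nonneg (sq_nonneg _) (by linarith)) k2

end FH

theorem FH.npc (n : ℕ) : ∀ {G : Type u} [Group G] [Finite G] {D : Set G}, Nat.card G < n → FH p D →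
    NPC p (closure D) := by
  induction n with
  | zero => exact fun l => absurd l (Nat.not_lt_zero _)
  | succ n ih =>
    intro G _ _ D l h
    have k : ∀ K : Subgroup G, K ≠ ⊤ → NPC p (closure (D ∩ K)) := fun K ne => by
      have := (npc_map_iff K.subtype_injective).2 (ih ((card_lt (lt_top_iff_ne_top.2 ne)).trans_le
        (card_top.trans_le (Nat.le_of_lt_succ l)))        (h.sub K))
      rwa [MonoidHom.map_closure, Set.image_preimage_eq_inter_range, coe_subtype, Subtype.range_coe] at this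
    by_cases e : closure D = ⊤
    · exact e ▸ h.core e k
    · simpa [Set.inter_eq_left.2 Subgroup.subset_closure] using k _ e

/-- the hypotheses of Fischer's theorem -/
structure FG (p : ℕ) (P : Subgroup G) : Prop where
  pr : p.Prime
  syl : Syl p P ⊤
  fus : ∀ x ∈ P, ∀ y ∈ P, (∃ g, g * x * g⁻¹ = y) → ∃ n ∈ 𝐍 P, n * x * n⁻¹ = y
  np : ∀ x ∈ P, orderOf x = p → NPC p (𝐂₁ x)
  ps : ∀ x y : G, orderOf x = p → orderOf y = p → IsPSolvable p (closure ({x, y} : Set G))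

/-- the conjugates of the elements of order `p` of `Z(P)` -/
def Dz (p : ℕ) (P : Subgroup G) : Set G := {x | orderOf x = p ∧ ∃ g, g * x * g⁻¹ ∈ P ⊓ 𝐂 P}

theorem Dz_cnj (ha : a ∈ Dz p P) (g : G) : g * a * g⁻¹ ∈ Dz p P :=
  ⟨(BG.orderOf_conj' g a).trans ha.1, ha.2.elim fun c k => ⟨c * g⁻¹, by simpa [mul_assoc] using k⟩⟩

namespace FG
variable (h : FG p P)
include h

theorem elt (o : orderOf a = p) : PiElt {p} a := by rw [PiElt, o]; exact piNat_self h.pr

theorem exists_le (k : PiGrp {p} Q) : ∃ g, ∀ x ∈ Q, g * x * g⁻¹ ∈ P :=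
  (h.syl.syl_cj_le le_top k).imp fun _ k _ hx => k.2 (conj_mem_cj.2 hx)

theorem mem_cent (ha : a ∈ Dz p P) (m : a ∈ P) : a ∈ 𝐂 P := by
  obtain ⟨g, k⟩ := ha.2
  obtain ⟨n, hn, e⟩ := h.fus _ k.1 a m ⟨g⁻¹, by group⟩
  exact e ▸ conj_mem_of_norm (norm_le_norm_cent P hn) k.2

theorem cen (ha : a ∈ Dz p P) (k : PiGrp {p} Q) (m : a ∈ Q) (hx : x ∈ Q) : x * a = a * x := by
  obtain ⟨g, l⟩ := h.exists_le k
  simpa [conj_mul] using mem_centralizer_iff.1 (h.mem_cent (Dz_cnj ha g) (l a m)) _ (l x hx)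

theorem np1 (o : orderOf a = p) : NPC p (𝐂₁ a) := by
  obtain ⟨g, l⟩ := h.exists_le (h.elt o).zpowers
  have := h.np _ (l a (mem_zpowers a)) ((BG.orderOf_conj' g a).trans o)
  rwa [← cj_cent1, cj_def, npc_map_iff (MulAut.conj g).injective] at this

theorem mem_O2 (s : IsPSolvable p H) (ha : a ∈ Dz p P) (m : a ∈ H) : a ∈ O2 {p}ᶜ {p} H := by
  haveI := Fact.mk h.pr
  obtain ⟨S, hS, l⟩ := exists_syl_le (K := zpowers (⟨a, m⟩ : H)) le_top
    ((piGrp_map_iff H.subtype_injective).1 (by simpa using (h.elt ha.1).zpowers))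
  obtain ⟨T, e⟩ := hS.inf_O2.exists_sylow
  rw [← map_pPrimePCore h.pr]
  refine mem_map_of_mem H.subtype (x := ⟨a, m⟩) ?_
  have := PLocal.isPConstrained_of_isPSolvable s
  rw [IsPConstrained, pPrimePCore_eq h.pr] at this
  rw [pPrimePCore_eq h.pr]
  exact this T (e ▸ mem_centralizer_iff.2 fun y hy => Subtype.ext (h.cen ha (hS.pi.map H.subtype)
    (mem_map_of_mem _ (l (mem_zpowers _))) (mem_map_of_mem _ hy.1)))

theorem fh (o : p ≠ 2) : FH p (Dz p P) where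
  pr := h.pr
  odd := o
  ord _ ha := ha.1
  cnj _ := Dz_cnj
  cen _ ha _ k m _ := h.cen ha k m
  mul a ha b hb e := by
    haveI := Fact.mk h.pr
    obtain ⟨g, l⟩ := h.exists_le ((h.elt ha.1).zpowers.sup (h.elt hb.1).zpowers
      (Or.inl ((zpowers_le.2 (cent_zpowers b ▸ mem_cent1.2 e)).trans (cent_le_norm _))))
    have k1 := l a (mem_sup_left (mem_zpowers a))
    have k2 := l b (mem_sup_right (mem_zpowers b))
    refine or_iff_not_imp_right.2 fun n => ⟨orderOf_eq_prime ?_ n, g, conj_mul (a := a) ▸ mul_mem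
      ⟨k1, h.mem_cent (Dz_cnj ha g) k1⟩ ⟨k2, h.mem_cent (Dz_cnj hb g) k2⟩⟩
    rw [Commute.mul_pow e, ← ha.1, pow_orderOf_eq_one, ha.1, ← hb.1, pow_orderOf_eq_one, one_mul]
  np1 _ ha := h.np1 ha.1
  np2 a ha b hb := npc_of_le_O2 ((closure_le _).2 (by
    rintro _ (rfl | rfl)
    exacts [h.mem_O2 (h.ps _ b ha.1 hb.1) ha (Subgroup.subset_closure (by simp)),
      h.mem_O2 (h.ps a _ ha.1 hb.1) hb (Subgroup.subset_closure (by simp))]))

theorem normal_of (O : 𝐎 {p}ᶜ (⊤ : Subgroup G) = ⊥) (ha : a ∈ Dz p P) (m : a ∈ 𝐎 {p} ⊤) : P.Normal := by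
  have n : centralizer (Dz p P ∩ 𝐎 {p} (⊤ : Subgroup G)) ⊴ ⊤ := normalIn_top.2 ⟨fun x hx g y hy => by
    have := hx _ ⟨Dz_cnj hy.1 g⁻¹, conj_mem_of_norm ((O_normal _ _).norm trivial) hy.2⟩
    calc _ = g * (g⁻¹ * y * g⁻¹⁻¹ * x) * g⁻¹ := by group
      _ = _ := by rw [this]; group⟩
  have k := (h.np1 ha.1).mono (fun x hx => mem_cent1.2 (hx a ⟨ha, m⟩).symm :
    centralizer (Dz p P ∩ 𝐎 {p} (⊤ : Subgroup G)) ≤ _)
  have l : P ≤ centralizer (Dz p P ∩ 𝐎 {p} (⊤ : Subgroup G)) := fun x hx y hy =>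
    (h.cen hy.1 h.syl.pi (h.syl.O_le hy.2) hx).symm
  have := (k.sdprod (h.syl.of_le l le_top)).sup
  rw [le_bot_iff.1 ((O_le_O_of_normal n _).trans O.le), bot_sup_eq] at this
  exact this ▸ normalIn_top.1 n

theorem exists_Dz (k : PiGrp {p} Q) (n : Q ⊴ ⊤) (q : Q ≠ ⊥) : ∃ a ∈ Dz p P, a ∈ Q := by
  obtain ⟨a, ha, o⟩ := exists_mem_orderOf_eq h.pr ((k.inf_left (K := 𝐂 P)).dvd_card
    (h.syl.pi.nil.inf_cent_ne_bot ⟨h.syl.le_of_normal n k, le_top.trans n.norm⟩ q))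
  exact ⟨a, ⟨o, 1, by simpa using ⟨h.syl.le_of_normal n k ha.1, ha.2⟩⟩, ha.1⟩

theorem normal (o : p ≠ 2) (O : 𝐎 {p}ᶜ (⊤ : Subgroup G) = ⊥) : P.Normal := by
  by_cases b : P = ⊥
  · exact b ▸ inferInstance
  have k := (h.fh o).npc _ (Nat.lt_succ_self _)
  have n : closure (Dz p P) ⊴ ⊤ := ⟨le_top, le_norm_of_cj_le fun g _ => by
    rw [cj_def, MonoidHom.map_closure]
    exact Subgroup.closure_mono (by rintro _ ⟨a, ha, rfl⟩; exact Dz_cnj ha g)⟩
  have i := k.idx.of_compl_compl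
  rw [le_bot_iff.1 ((O_le_O_of_normal n _).trans O.le), relIndex_bot_left] at i
  obtain ⟨a, ha, o⟩ := exists_mem_orderOf_eq h.pr ((h.syl.pi.inf_left (K := 𝐂 P)).dvd_card
    (h.syl.pi.nil.center_ne_bot b))
  have m : a ∈ Dz p P := ⟨o, 1, by simpa using ha⟩
  exact h.normal_of O m (le_O n i (Subgroup.subset_closure m))

end FG

theorem FG.of [Fact p.Prime] (P : Sylow p G)
    (ha : ∀ x ∈ (P : Subgroup G), ∀ y ∈ (P : Subgroup G), (∃ g : G, g * x * g⁻¹ = y) →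
      ∃ n ∈ 𝐍 (P : Subgroup G), n * x * n⁻¹ = y)
    (hb : ∀ x ∈ (P : Subgroup G), orderOf x = p → HasNormalPComplement p (𝐂₁ x))
    (hc : ∀ x y : G, orderOf x = p → orderOf y = p → IsPSolvable p (closure ({x, y} : Set G))) :
    FG p (P : Subgroup G) :=
  ⟨Fact.out, syl_sylow_top P, ha, fun x hx o => (npc_iff Fact.out).2 (hb x hx o), hc⟩

end CF.CIT
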