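import Cfsg.Agent.Char.PB
import Cfsg.Agent.Char.Galois

/-!
# Fischer's theorem: fixed spaces and numerical lemmas
-/

set_option autoImplicit false

namespace CF.CIT
open Cfsg CF.Char Module Finset

/-- Dimensions of the fixed spaces of subgroups. -/
theorem exists_fixDim {G : Type*} [Group G] [Finite G] {χ : G → ℂ} (h : IsCharacter G χ) :
    ∃ (d : ℕ) (α : Subgroup G → ℕ), χ 1 = d ∧ (∀ A B, α A + α B ≤ d + α (A ⊔ B)) ∧
      ∀ (A : Subgroup G) [Fintype A], ∑ x : A, χ x = Nat.card A * α A := by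
  obtain ⟨n, ρ, rfl⟩ := h
  refine ⟨n, fun A => finrank ℂ (Representation.invariants (ρ.comp A.subtype)), by simp,
    fun A B => ?_, fun A _ => ?_⟩
  · rw [← Submodule.finrank_sup_add_finrank_inf_eq]
    refine add_le_add ((Submodule.finrank_le _).trans (by simp)) (Submodule.finrank_mono ?_)
    rintro v ⟨ha, hb⟩ ⟨x, hx⟩
    change ρ x v = v
    rw [Subgroup.sup_eq_closure] at hx
    induction hx using Subgroup.closure_induction with
    | mem y hy => exact hy.elim (fun k => ha ⟨y, k⟩) fun k => hb ⟨y, k⟩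
    | one => simp
    | mul y z _ _ hy hz => rw [map_mul, Module.End.mul_apply, hz, hy]
    | inv y _ hy =>
      conv_lhs => rw [← hy, ← Module.End.mul_apply, ← map_mul, inv_mul_cancel, map_one]
      rfl
  · rw [← inner_character_one_eq_finrank, card_mul_inner]
    simp [Representation.character]

theorem fisch_num {ι : Type*} [DecidableEq ι] {B : Finset ι} {i₀ : ι} (h0 : i₀ ∈ B) {s d n : ι → ℝ}
    {P e m R t : ℝ} (hP : 0 < P) (hm : 0 < m) (dp : ∀ i ∈ B, 0 < d i) (s0 : s i₀ = m) (d0 : d i₀ = 1)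
    (lo : ∀ i ∈ B, -d i ≤ s i) (cs : ∀ i ∈ B, s i ^ 2 ≤ m * n i)
    (hi : ∀ i ∈ B, i ≠ i₀ → s i ≤ t * d i)
    (I1 : ∑ i ∈ B, s i ^ 2 * (s i / d i) = P * e * (m ^ 2 - R)) (I2 : ∑ i ∈ B, s i ^ 2 = P * e * m)
    (I3 : ∑ i ∈ B, s i * d i = 0) (I4 : ∑ i ∈ B, n i * (s i / d i) = P * (e * m - R))
    (I5 : ∑ i ∈ B, n i = P * m) :
    (e < m → R ≤ m) ∧ ∃ i ∈ B, s i < 0 ∧ P * e * (m ^ 2 - R - t * m) + s i ^ 2 * t < m ^ 2 * (m - t) := by
  constructor
  · intro l
    have : 0 ≤ ∑ i ∈ B, (m * n i - s i ^ 2) * (1 + s i / d i) := sum_nonneg fun i k =>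
      mul_nonneg (sub_nonneg.2 (cs i k)) (by
        rw [one_add_div (dp i k).ne']; exact div_nonneg (by linarith [lo i k]) (dp i k).le)
    simp only [sub_mul, mul_add, mul_one, mul_assoc, sum_add_distrib, sum_sub_distrib, ← mul_sum, I1, I2,
      I4, I5] at this
    have : 0 ≤ P * (m - e) * (m - R) := by linarith
    exact sub_nonneg.1 (nonneg_of_mul_nonneg_right this (mul_pos hP (sub_pos.2 l)))
  · obtain ⟨i, k, l⟩ : ∃ i ∈ B, s i < 0 := by
      by_contra! k
      have := single_le_sum (f := fun i => s i * d i) (fun i j => mul_nonneg (k i j) (dp i j).le) h0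
      simp only [I3, s0, d0] at this
      linarith
    have ne : i ≠ i₀ := fun e => by rw [e, s0] at l; linarith
    refine ⟨i, k, l, ?_⟩
    have := single_le_sum (f := fun i => s i ^ 2 * (t - s i / d i)) (s := B.erase i₀) (fun j hj =>
      mul_nonneg (sq_nonneg _) (by
        rw [sub_nonneg, div_le_iff₀ (dp j (mem_of_mem_erase hj))]
        exact hi j (mem_of_mem_erase hj) (ne_of_mem_erase hj))) (mem_erase.2 ⟨ne, k⟩)
    rw [sum_erase_eq_sub h0] at this
    simp only [mul_sub, sum_sub_distrib, ← sum_mul, I1, I2, s0, d0, div_one] at this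
    have : s i ^ 2 * (s i / d i) < 0 := 
      mul_neg_of_pos_of_neg (sq_pos_of_ne_zero l.ne) (div_neg_of_neg_of_pos l (dp i k))
    linarith

theorem fisch_V {P e m R x : ℝ} (hP : m + 1 ≤ P) (h2 : 2 ≤ e) (l : e ≤ m) (h : e < m → R ≤ m)
    (r : 2 * R ≤ m ^ 2) (hx : 0 ≤ x) :
    ¬ P * e * (m ^ 2 - R - (m - 1) / 2 * m) + x < m ^ 2 * (m - (m - 1) / 2) := fun k => by
  rcases l.eq_or_lt with rfl | l
  · have : (e + 1) * e * (e / 2) ≤ P * e * (e ^ 2 - R - (e - 1) / 2 * e) := by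
      gcongr <;> nlinarith
    nlinarith
  · have := h l
    have : (m + 1) * 2 * (m * (m - 1) / 2) ≤ P * e * (m ^ 2 - R - (m - 1) / 2 * m) := by
      gcongr <;> nlinarith
    nlinarith

theorem fisch_W {P e m R x : ℝ} (hP : m + 1 ≤ P) (h2 : 2 ≤ e) (h4 : 4 ≤ m) (r : R ≤ m) (hx : 0 ≤ x) :
    ¬ P * e * (m ^ 2 - R - (2 * m - 1) / 3 * m) + x < m ^ 2 * (m - (2 * m - 1) / 3) := fun k => by
  have : (m + 1) * 2 * (m * (m - 2) / 3) ≤ P * e * (m ^ 2 - R - (2 * m - 1) / 3 * m) := by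
    gcongr <;> nlinarith
  nlinarith

end CF.CIT
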